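import Cfsg.Agent.Lib.TvGen.Grp
import Cfsg.Agent.Lib.Core.Cores

/-!
Linear groups generated by transvections without normal `p`-subgroups: the classes of
transvections and the invariant subspaces they span.
-/

set_option autoImplicit false

namespace CfsgLib.TvGen

open Module

variable {p : ℕ} [Fact p.Prime] {V : Type*} [AddCommGroup V] [Module (ZMod p) V] [Finite V]

local notation "bb" => (LinearMap.id : Dual (ZMod p) V →ₗ[ZMod p] V →ₗ[ZMod p] ZMod p)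

/-- The standing hypotheses. -/
structure Hyp (H : Subgroup (V ≃ₗ[ZMod p] V)) : Prop where
  two : (2 : ZMod p) ≠ 0
  gen : H ≤ Subgroup.closure {g | ∃ v φ, Nd (Tv H) v φ ∧ ∀ x, g x = x + φ x • v}
  core : Cfsg.pCore p ↥H = ⊥

/-- Invariant subspaces. -/
def Inv (H : Subgroup (V ≃ₗ[ZMod p] V)) (W : Submodule (ZMod p) V) : Prop :=
  ∀ u χ, Nd (Tv H) u χ → ∀ x ∈ W, χ x ≠ 0 → u ∈ W

/-- The span of the centres reachable from a pair. -/
def Msp (H : Subgroup (V ≃ₗ[ZMod p] V)) (σ : V × Dual (ZMod p) V) : Submodule (ZMod p) V :=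
  Submodule.span (ZMod p)
    {w | ∃ ψ, Nd (Tv H) w ψ ∧ Relation.ReflTransGen (Arr bb (Tv H)) σ (w, ψ)}

/-- The classes, with a dummy one. -/
def IsCl (H : Subgroup (V ≃ₗ[ZMod p] V)) (M : Submodule (ZMod p) V) : Prop :=
  M = ⊥ ∨ ∃ v φ, Nd (Tv H) v φ ∧ M = Msp H (v, φ)

/-- The pairs of a class. -/
def SM (H : Subgroup (V ≃ₗ[ZMod p] V)) (M : Submodule (ZMod p) V) (v : V)
    (φ : Dual (ZMod p) V) : Prop := Tv H v φ ∧ v ∈ M

/-- The span of the axes of a class. -/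
def Phi (H : Subgroup (V ≃ₗ[ZMod p] V)) (M : Submodule (ZMod p) V) :
    Submodule (ZMod p) (Dual (ZMod p) V) :=
  Submodule.span (ZMod p) {η | ∃ y, Nd (SM H M) y η}

variable {H : Subgroup (V ≃ₗ[ZMod p] V)}

omit [Finite V] in
theorem nd_SM {M : Submodule (ZMod p) V} {v : V} {φ : Dual (ZMod p) V} :
    Nd (SM H M) v φ ↔ Nd (Tv H) v φ ∧ v ∈ M :=
  ⟨fun h => ⟨⟨h.1.1, h.2⟩, h.1.2⟩, fun h => ⟨⟨h.1.1, h.2⟩, h.1.2⟩⟩

omit [Finite V] in
theorem reach_of_ne {σ : V × Dual (ZMod p) V} (hσ : Nd (Tv H) σ.1 σ.2) {u : V}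
    {χ : Dual (ZMod p) V} (hu : Nd (Tv H) u χ) {x : V} (hx : x ∈ Msp H σ) (hne : χ x ≠ 0) :
    Relation.ReflTransGen (Arr bb (Tv H)) σ (u, χ) := by
  by_contra hc
  apply hne
  have : Msp H σ ≤ LinearMap.ker χ := by
    refine Submodule.span_le.2 ?_
    rintro w ⟨ψ, hw, hr⟩
    by_contra h0
    exact hc (hr.tail ⟨hw, hu, h0⟩)
  exact this hx

omit [Finite V] in
theorem inv_Msp {σ : V × Dual (ZMod p) V} (hσ : Nd (Tv H) σ.1 σ.2) : Inv H (Msp H σ) :=
  fun _ χ hu _ hx hne => Submodule.subset_span ⟨χ, hu, reach_of_ne hσ hu hx hne⟩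

omit [Finite V] in
theorem self_mem_Msp {v : V} {φ : Dual (ZMod p) V} (h : Nd (Tv H) v φ) : v ∈ Msp H (v, φ) :=
  Submodule.subset_span ⟨φ, h, Relation.ReflTransGen.refl⟩

omit [Finite V] in
theorem IsCl.inv {M : Submodule (ZMod p) V} (hM : IsCl H M) : Inv H M := by
  rcases hM with rfl | ⟨v, φ, hv, rfl⟩
  · intro u χ _ x hx hne
    rw [Submodule.mem_bot] at hx
    subst hx
    simp at hne
  · exact inv_Msp hv

namespace Hyp

variable (h : Hyp H)
include h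

omit [Finite V] in
theorem apply_mem {W : Submodule (ZMod p) V} (hW : Inv H W) {g : V ≃ₗ[ZMod p] V} (hg : g ∈ H) :
    ∀ x ∈ W, g x ∈ W := by
  have key : (∀ x ∈ W, g x ∈ W) ∧ ∀ x ∈ W, g⁻¹ x ∈ W := by
    refine Subgroup.closure_induction (p := fun g _ => (∀ x ∈ W, g x ∈ W) ∧ ∀ x ∈ W, g⁻¹ x ∈ W)
      ?_ ?_ ?_ ?_ (h.gen hg)
    · rintro g ⟨v, φ, hv, hg⟩
      have : ∀ x ∈ W, φ x • v ∈ W := by
        intro x hx
        by_cases h0 : φ x = 0
        · simp [h0]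
        · exact W.smul_mem _ (hW v φ hv x hx h0)
      exact ⟨fun x hx => by rw [hg]; exact W.add_mem hx (this x hx),
        fun x hx => by rw [tv_inv_apply hv.1.1 hg]; exact W.sub_mem hx (this x hx)⟩
    · simp
    · intro a b _ _ ha hb
      exact ⟨fun x hx => ha.1 _ (hb.1 x hx), fun x hx => by
        rw [mul_inv_rev]; exact hb.2 _ (ha.2 x hx)⟩
    · intro a _ ha
      exact ⟨ha.2, by simpa using ha.1⟩
  exact key.1

omit [Finite V] in
theorem map_eq {W : Submodule (ZMod p) V} (hW : Inv H W) {g : V ≃ₗ[ZMod p] V} (hg : g ∈ H) :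
    W.map (g : V →ₗ[ZMod p] V) = W := by
  refine le_antisymm ?_ fun x hx => ⟨g⁻¹ x, h.apply_mem hW (H.inv_mem hg) x hx, ?_⟩
  · rintro _ ⟨x, hx, rfl⟩
    exact h.apply_mem hW hg x hx
  · show g (g⁻¹ x) = x
    rw [← LinearEquiv.mul_apply, mul_inv_cancel]; rfl

omit [Finite V] in
/-- No transvection of `H` acts trivially on an invariant subspace and on the quotient. -/
theorem key {W : Submodule (ZMod p) V} (hW : Inv H W) {v : V} {φ : Dual (ZMod p) V}
    (hv : Nd (Tv H) v φ) (hvW : v ∈ W) : ∃ x ∈ W, φ x ≠ 0 := by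
  by_contra hc
  push Not at hc
  let Q : Subgroup ↥H :=
    { carrier := {g | (∀ x ∈ W, (g : V ≃ₗ[ZMod p] V) x = x) ∧ ∀ x, (g : V ≃ₗ[ZMod p] V) x - x ∈ W}
      one_mem' := by simp
      mul_mem' := by
        rintro a b ⟨a1, a2⟩ ⟨b1, b2⟩
        refine ⟨fun x hx => ?_, fun x => ?_⟩
        · rw [Subgroup.coe_mul, LinearEquiv.mul_apply, b1 x hx, a1 x hx]
        · rw [Subgroup.coe_mul, LinearEquiv.mul_apply]
          simpa using W.add_mem (a2 ((b : V ≃ₗ[ZMod p] V) x)) (b2 x)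
      inv_mem' := by
        rintro a ⟨a1, a2⟩
        refine ⟨fun x hx => ?_, fun x => ?_⟩
        · rw [Subgroup.coe_inv]
          apply (a : V ≃ₗ[ZMod p] V).injective
          rw [← LinearEquiv.mul_apply, mul_inv_cancel, a1 x hx]; rfl
        · have := W.neg_mem (a2 ((a : V ≃ₗ[ZMod p] V)⁻¹ x))
          rw [← LinearEquiv.mul_apply, mul_inv_cancel] at this
          simpa using this }
  have hQn : Q.Normal := ⟨by
    rintro a ⟨a1, a2⟩ g
    refine ⟨fun x hx => ?_, fun x => ?_⟩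
    · rw [Subgroup.coe_mul, Subgroup.coe_mul, LinearEquiv.mul_apply, LinearEquiv.mul_apply,
        a1 _ (h.apply_mem hW g⁻¹.2 x hx), ← LinearEquiv.mul_apply, ← Subgroup.coe_mul,
        mul_inv_cancel]
      rfl
    · have := h.apply_mem hW g.2 _ (a2 ((g⁻¹ : H).1 x))
      rw [map_sub, ← LinearEquiv.mul_apply (g : V ≃ₗ[ZMod p] V) (g⁻¹ : H).1, ← Subgroup.coe_mul,
        mul_inv_cancel] at this
      exact this⟩
  have hQp : IsPGroup p Q := by
    rintro ⟨a, a1, a2⟩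
    refine ⟨1, Subtype.ext (Subtype.ext (LinearEquiv.ext fun x => ?_))⟩
    have : ∀ n : ℕ, ((a : V ≃ₗ[ZMod p] V) ^ n) x =
        x + (n : ZMod p) • ((a : V ≃ₗ[ZMod p] V) x - x) := by
      intro n
      induction n with
      | zero => simp
      | succ n ih =>
        rw [pow_succ', LinearEquiv.mul_apply, ih, map_add, map_smul, a1 _ (a2 x)]
        push_cast
        module
    simpa using this p
  have hQ : Q ≤ Cfsg.pCore p ↥H := le_sSup ⟨hQn, hQp⟩
  obtain ⟨h0, g, hg, hg'⟩ := hv.1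
  have : (⟨g, hg⟩ : H) ∈ Q :=
    ⟨fun x hx => by simp [hg', hc x hx], fun x => by simpa [hg'] using W.smul_mem _ hvW⟩
  have h1 := hQ this
  rw [h.core, Subgroup.mem_bot] at h1
  have h2 : g = 1 := congrArg Subtype.val h1
  refine hv.2.2 (LinearMap.ext fun x => ?_)
  have := hg' x
  rw [h2] at this
  have h3 : φ x • v = 0 := by simpa using this
  exact (smul_eq_zero.1 h3).resolve_right hv.2.1

omit [Finite V] in
theorem reach_of_mem {σ : V × Dual (ZMod p) V} (hσ : Nd (Tv H) σ.1 σ.2) {u : V}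
    {χ : Dual (ZMod p) V} (hu : Nd (Tv H) u χ) (hx : u ∈ Msp H σ) :
    Relation.ReflTransGen (Arr bb (Tv H)) σ (u, χ) := by
  obtain ⟨x, hx, hne⟩ := h.key (inv_Msp hσ) hu hx
  exact reach_of_ne hσ hu hx hne

omit [Finite V] in
theorem reach_symm {σ τ : V × Dual (ZMod p) V}
    (hr : Relation.ReflTransGen (Arr bb (Tv H)) σ τ) :
    Relation.ReflTransGen (Arr bb (Tv H)) τ σ := by
  induction hr with
  | refl => exact Relation.ReflTransGen.refl
  | @tail r s _ hab ih =>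
    refine Relation.ReflTransGen.trans ?_ ih
    obtain ⟨h1, h2, h3⟩ := hab
    by_cases h0 : r.2 s.1 = 0
    · have a : Tv H s.1 r.2 := (ts_tv h.two H).comm h1.1 h2.1 h3 h0
      obtain ⟨x, hx, hne⟩ := h.key (inv_Msp h2) ⟨a, h2.2.1, h1.2.2⟩ (self_mem_Msp h2)
      exact reach_of_ne h2 h1 hx hne
    · exact Relation.ReflTransGen.single ⟨h2, h1, h0⟩

omit [Finite V] in
theorem eq_Msp {M : Submodule (ZMod p) V} (hM : IsCl H M) {v : V} {φ : Dual (ZMod p) V}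
    (hv : Nd (Tv H) v φ) (hvM : v ∈ M) : M = Msp H (v, φ) := by
  rcases hM with rfl | ⟨w, ψ, hw, rfl⟩
  · exact absurd hvM hv.2.1
  · have h1 := h.reach_of_mem (σ := (w, ψ)) hw hv hvM
    have h2 := h.reach_symm h1
    unfold Msp
    congr 1
    ext x
    exact ⟨fun ⟨a, b, c⟩ => ⟨a, b, h2.trans c⟩, fun ⟨a, b, c⟩ => ⟨a, b, h1.trans c⟩⟩

omit [Finite V] in
theorem ts_SM (M : Submodule (ZMod p) V) : TS bb (SM H M) where
  inc := fun a => a.1.1
  sml := fun c a => ⟨(ts_tv h.two H).sml c a.1, M.smul_mem c a.2⟩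
  smr := fun c a => ⟨(ts_tv h.two H).smr c a.1, a.2⟩
  adl := fun a b => ⟨(ts_tv h.two H).adl a.1 b.1, M.add_mem a.2 b.2⟩
  adr := fun a b => ⟨(ts_tv h.two H).adr a.1 b.1, a.2⟩
  conj := fun a b => ⟨(ts_tv h.two H).conj a.1 b.1, M.add_mem a.2 (M.smul_mem _ b.2)⟩
  heis := fun a b c d1 d2 d3 d4 d5 d6 =>
    ⟨(ts_tv h.two H).heis a.1 b.1 c.1 d1 d2 d3 d4 d5 d6, M.add_mem a.2 b.2⟩

omit [Finite V] in
theorem span_SM {M : Submodule (ZMod p) V} (hM : IsCl H M) :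
    M = Submodule.span (ZMod p) {y | ∃ η, Nd (SM H M) y η} := by
  refine le_antisymm ?_ (Submodule.span_le.2 fun y ⟨η, hy⟩ => hy.1.2)
  rcases hM with rfl | ⟨w, ψ, hw, rfl⟩
  · exact bot_le
  · refine Submodule.span_mono ?_
    rintro y ⟨η, hy, hr⟩
    exact ⟨η, nd_SM.2 ⟨hy, Submodule.subset_span ⟨η, hy, hr⟩⟩⟩

omit [Finite V] in
theorem con_SM {M : Submodule (ZMod p) V} (hM : IsCl H M) : Con bb (SM H M) where
  reach := by
    intro v φ w ψ hv hw
    rw [nd_SM] at hv hw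
    have e := h.eq_Msp hM hv.1 hv.2
    have hr := h.reach_of_mem (σ := (v, φ)) hv.1 hw.1 (e ▸ hw.2)
    have key : ∀ q, Relation.ReflTransGen (Arr bb (Tv H)) (v, φ) q →
        q.1 ∈ M ∧ Relation.ReflTransGen (Arr bb (SM H M)) (v, φ) q := by
      intro q hq
      induction hq with
      | refl => exact ⟨hv.2, Relation.ReflTransGen.refl⟩
      | @tail r s _ hab ih =>
        have : s.1 ∈ M := hM.inv _ _ hab.2.1 _ ih.1 hab.2.2
        exact ⟨this, ih.2.tail ⟨nd_SM.2 ⟨hab.1, ih.1⟩, nd_SM.2 ⟨hab.2.1, this⟩, hab.2.2⟩⟩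
    exact (key _ hr).2
  out := by
    intro v φ hv
    rw [nd_SM] at hv
    by_contra hc
    push Not at hc
    let C : Submodule (ZMod p) V := ⨅ η ∈ {η | ∃ y, Nd (Tv H) y η}, LinearMap.ker η
    have hC : ∀ x, x ∈ C ↔ ∀ y η, Nd (Tv H) y η → η x = 0 := by
      intro x
      simp only [C, Submodule.mem_iInf, LinearMap.mem_ker, Set.mem_setOf_eq]
      exact ⟨fun a y η b => a η ⟨y, b⟩, fun a η ⟨y, b⟩ => a y η b⟩
    have hv' : v ∈ C := (hC v).2 fun y η hy => by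
      by_contra hne
      exact hne (hc y η (nd_SM.2 ⟨hy, hM.inv y η hy v hv.2 hne⟩))
    obtain ⟨x, hx, hne⟩ := h.key (W := C) (fun u χ hu x hx hne => absurd ((hC x).1 hx u χ hu) hne)
      hv.1 hv'
    exact hne ((hC x).1 hx v φ hv.1)
  inn := by
    intro v φ hv
    rw [nd_SM] at hv
    obtain ⟨x, hx, hne⟩ := h.key hM.inv hv.1 hv.2
    by_contra hc
    push Not at hc
    apply hne
    have : Submodule.span (ZMod p) {y | ∃ η, Nd (SM H M) y η} ≤ LinearMap.ker φ :=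
      Submodule.span_le.2 fun y ⟨η, hy⟩ => hc y η hy
    exact this (h.span_SM hM ▸ hx)

omit [Finite V] in
theorem centre {M : Submodule (ZMod p) V} (hM : IsCl H M) {v : V} (hv : v ∈ M) (h0 : v ≠ 0) :
    ∃ φ, Nd (SM H M) v φ :=
  (h.con_SM hM).centre_of_mem_span (h.ts_SM M) h.two (h.span_SM hM ▸ hv) h0

omit [Finite V] in
theorem axis {M : Submodule (ZMod p) V} (hM : IsCl H M) {φ : Dual (ZMod p) V} (hφ : φ ∈ Phi H M)
    (h0 : φ ≠ 0) : ∃ v, Nd (SM H M) v φ :=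
  (h.con_SM hM).axis_of_mem_span (h.ts_SM M) h.two hφ h0

omit [Finite V] in
theorem eq_zero_left {M : Submodule (ZMod p) V} (hM : IsCl H M) {v : V} (hv : v ∈ M)
    (h0 : ∀ φ ∈ Phi H M, φ v = 0) : v = 0 := by
  by_contra hne
  obtain ⟨φ, hφ⟩ := h.centre hM hv hne
  obtain ⟨y, η, hy, hη⟩ := (h.con_SM hM).out hφ
  exact hη (h0 η (Submodule.subset_span ⟨y, hy⟩))

omit [Finite V] in
theorem eq_zero_right {M : Submodule (ZMod p) V} (hM : IsCl H M) {φ : Dual (ZMod p) V}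
    (hφ : φ ∈ Phi H M) (h0 : ∀ v ∈ M, φ v = 0) : φ = 0 := by
  by_contra hne
  obtain ⟨v, hv⟩ := h.axis hM hφ hne
  obtain ⟨y, η, hy, hη⟩ := (h.con_SM hM).inn hv
  exact hη (h0 y hy.1.2)

theorem perfect {M : Submodule (ZMod p) V} (hM : IsCl H M) :
    (∀ ξ : Dual (ZMod p) M, ∃ φ ∈ Phi H M, ∀ m : M, φ m = ξ m) ∧
      ∀ x : V, ∃ m ∈ M, ∀ φ ∈ Phi H M, φ x = φ m := by
  let r : Phi H M →ₗ[ZMod p] Dual (ZMod p) M := M.subtype.dualMap ∘ₗ (Phi H M).subtype
  let ev : V →ₗ[ZMod p] Dual (ZMod p) (Phi H M) :=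
    (Phi H M).subtype.dualMap ∘ₗ Dual.eval (ZMod p) V
  let l : M →ₗ[ZMod p] Dual (ZMod p) (Phi H M) := ev ∘ₗ M.subtype
  have hr : Function.Injective r := by
    rw [← LinearMap.ker_eq_bot, eq_bot_iff]
    intro φ hφ
    exact Subtype.ext (h.eq_zero_right hM φ.2 fun v hv => LinearMap.congr_fun hφ ⟨v, hv⟩)
  have hl : Function.Injective l := by
    rw [← LinearMap.ker_eq_bot, eq_bot_iff]
    intro m hm
    exact Subtype.ext (h.eq_zero_left hM m.2 fun φ hφ => LinearMap.congr_fun hm ⟨φ, hφ⟩)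
  have d1 := LinearMap.finrank_le_finrank_of_injective hr
  have d2 := LinearMap.finrank_le_finrank_of_injective hl
  rw [Subspace.dual_finrank_eq] at d1 d2
  have hr' := (LinearMap.injective_iff_surjective_of_finrank_eq_finrank
    (by rw [Subspace.dual_finrank_eq]; omega)).1 hr
  have hl' := (LinearMap.injective_iff_surjective_of_finrank_eq_finrank
    (by rw [Subspace.dual_finrank_eq]; omega)).1 hl
  refine ⟨fun ξ => ?_, fun x => ?_⟩
  · obtain ⟨φ, rfl⟩ := hr' ξ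
    exact ⟨φ, φ.2, fun m => rfl⟩
  · obtain ⟨m, hm⟩ := hl' (ev x)
    exact ⟨m, m.2, fun φ hφ => (LinearMap.congr_fun hm ⟨φ, hφ⟩).symm⟩

omit [Finite V] in
theorem orth {M M' : Submodule (ZMod p) V} (hM : IsCl H M) (hM' : IsCl H M') (hne : M ≠ M')
    {φ : Dual (ZMod p) V} (hφ : φ ∈ Phi H M) {x : V} (hx : x ∈ M') : φ x = 0 := by
  have : Phi H M ≤ LinearMap.ker (Dual.eval (ZMod p) V x) := by
    refine Submodule.span_le.2 ?_
    rintro η ⟨y, hy⟩
    rw [nd_SM] at hy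
    by_contra h0
    exact hne ((h.eq_Msp hM hy.1 hy.2).trans (h.eq_Msp hM' hy.1 (hM'.inv y η hy.1 x hx h0)).symm)
  exact this hφ

end Hyp

end CfsgLib.TvGen
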